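import Cfsg.Agent.H751.EPX.LocGen
import Cfsg.Agent.H751.EPX.A6Dec
import Cfsg.Agent.H751.EPX.A6Dec2
import Cfsg.Agent.H751.EPX.A6Dec3
import Cfsg.Agent.S0494

/-!
# `LocK A₆` has at most 300 members `≠ A₆` (helper751)
-/

set_option autoImplicit false

namespace Cfsg.Agent.H751.EPX

open Subgroup Cfsg Cfsg.Agent.H273.EPU Cfsg.Agent.H59.EP Cfsg.Agent.H751.EPX.Loc

/-- `A₆` -/
abbrev AS : Type := alternatingGroup (Fin 6)

theorem card_AS : Nat.card AS = 360 := by
  have h := two_mul_card_alternatingGroup (α := Fin 6)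
  rw [Fintype.card_perm, Fintype.card_fin, ← Nat.card_eq_fintype_card] at h
  have h2 : Nat.factorial 6 = 720 := rfl
  rw [h2] at h
  show Nat.card (alternatingGroup (Fin 6)) = 360
  omega

theorem sq_iff {G : Type*} [Group G] (a : G) : orderOf a = 2 ↔ a * a = 1 ∧ a ≠ 1 := by
  have : Fact (Nat.Prime 2) := ⟨by norm_num⟩
  rw [orderOf_eq_prime_iff, pow_two]

theorem cube_iff {G : Type*} [Group G] (a : G) : orderOf a = 3 ↔ a * a * a = 1 ∧ a ≠ 1 := by
  have : Fact (Nat.Prime 3) := ⟨by norm_num⟩
  rw [orderOf_eq_prime_iff]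
  simp only [pow_succ, pow_zero, one_mul]

theorem five_iff {G : Type*} [Group G] (a : G) : orderOf a = 5 ↔ a * a * a * a * a = 1 ∧ a ≠ 1 := by
  have : Fact (Nat.Prime 5) := ⟨by norm_num⟩
  rw [orderOf_eq_prime_iff]
  simp only [pow_succ, pow_zero, one_mul]

theorem inv_AS : {a : AS | orderOf a = 2}.ncard = 45 := by
  rw [← A6Dec.inv6, ← Set.ncard_coe_finset]
  congr 1
  ext a
  simp [sq_iff]

theorem three_AS : {a : AS | orderOf a = 3}.ncard = 80 := by
  rw [← A6Dec.three6, ← Set.ncard_coe_finset]
  congr 1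
  ext a
  simp [cube_iff]

theorem five_AS : {a : AS | orderOf a = 5}.ncard = 144 := by
  rw [← A6Dec.five6, ← Set.ncard_coe_finset]
  congr 1
  ext a
  simp [five_iff]

theorem three_A5 : {a : alternatingGroup (Fin 5) | orderOf a = 3}.ncard = 20 := by
  rw [← A6Dec.three5, ← Set.ncard_coe_finset]
  congr 1
  ext a
  simp [cube_iff]

theorem five_A5 : {a : alternatingGroup (Fin 5) | orderOf a = 5}.ncard = 24 := by
  rw [← A6Dec.five5, ← Set.ncard_coe_finset]
  congr 1
  ext a
  simp [five_iff]

/-- the commuting pairs of involutions -/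
def CP : Set (AS × AS) := {p | orderOf p.1 = 2 ∧ orderOf p.2 = 2 ∧ p.2 ≠ p.1 ∧ p.1 * p.2 = p.2 * p.1}

theorem CP_card : CP.ncard ≤ 180 := by
  classical
  have h1 : CP ⊆ ⋃ a ∈ (Set.toFinite {a : AS | orderOf a = 2}).toFinset,
      (fun b => (a, b)) '' {b : AS | orderOf b = 2 ∧ b ≠ a ∧ a * b = b * a} := by
    rintro ⟨a, b⟩ ⟨h1, h2, h3, h4⟩
    simp only [Set.mem_iUnion]
    refine ⟨a, ?_, b, ⟨h2, h3, h4⟩, rfl⟩
    rw [Set.Finite.mem_toFinset]
    exact h1
  have h2 : ∀ I : Finset AS, (∀ a ∈ I, orderOf a = 2) → (⋃ a ∈ I,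
      (fun b => (a, b)) '' {b : AS | orderOf b = 2 ∧ b ≠ a ∧ a * b = b * a}).ncard ≤ I.card * 4 := by
    intro I
    induction I using Finset.induction_on with
    | empty => intro _; simp
    | insert j I hj ih =>
      intro hI
      rw [Finset.set_biUnion_insert, Finset.card_insert_of_notMem hj, add_mul, one_mul, add_comm (I.card * 4)]
      refine (Set.ncard_union_le _ _).trans (add_le_add ?_ (ih fun a ha => hI a (Finset.mem_insert_of_mem ha)))
      refine (Set.ncard_image_le (Set.toFinite _)).trans (le_of_eq ?_)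
      obtain ⟨h3, h4⟩ := (sq_iff j).1 (hI j (Finset.mem_insert_self _ _))
      rw [← A6Dec.comm6 j h3 h4, ← Set.ncard_coe_finset]
      congr 1
      ext b
      simp [sq_iff, and_assoc]
  refine (Set.ncard_le_ncard h1 (Set.toFinite _)).trans ((h2 _ fun a ha => ?_).trans ?_)
  · rw [Set.Finite.mem_toFinset] at ha
    exact ha
  · rw [← Set.ncard_eq_toFinset_card, inv_AS]

theorem ncard_five : {X : Subgroup AS | Nat.card X = 5}.ncard ≤ 36 := by
  have : Fact (Nat.Prime 5) := ⟨by norm_num⟩
  have h1 := ncard_sylow_le (T := AS) (p := 5) (n := 1) (m := 72) card_AS (by norm_num)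
  rw [pow_one] at h1
  refine h1.trans ?_
  let P : Sylow 5 AS := default
  have h2 : Nat.card (Sylow 5 AS) ∣ 72 := by
    have h3 := P.card_dvd_index
    have h4 : Nat.card P = 5 := by
      rw [P.card_eq_multiplicity, card_AS, show (360 : ℕ) = 5 ^ 1 * 72 from rfl,
        Nat.factorization_mul (by norm_num) (by norm_num), Nat.Prime.factorization_pow (by norm_num), Finsupp.add_apply,
        Finsupp.single_eq_same, Nat.factorization_eq_zero_of_not_dvd (by norm_num : ¬ 5 ∣ 72)]
      norm_num
    have h5 := (P : Subgroup AS).card_mul_index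
    rw [card_AS] at h5
    have h6 : Nat.card (P : Subgroup AS) = 5 := h4
    rw [h6] at h5
    have h7 : (P : Subgroup AS).index = 72 := by omega
    rwa [h7] at h3
  have h3 := card_sylow_modEq_one 5 AS
  by_contra hlt
  push Not at hlt
  obtain ⟨c, hc⟩ := h2
  have hc1 : c = 1 := by
    by_contra hne
    have : 2 ≤ c := by
      rcases Nat.eq_zero_or_pos c with h | h
      · rw [h] at hc; omega
      · omega
    have := Nat.mul_le_mul_left (Nat.card (Sylow 5 AS)) this
    omega
  rw [hc1, mul_one] at hc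
  rw [← hc] at h3
  exact absurd h3 (by decide)

theorem card_sylow_le {p n m : ℕ} [hp : Fact p.Prime] (hT : Nat.card AS = p ^ n * m) (hm : ¬ p ∣ m) (hm0 : 0 < m) :
    Nat.card (Sylow p AS) ≤ m := by
  let P : Sylow p AS := default
  have h4 : Nat.card P = p ^ n := by
    rw [P.card_eq_multiplicity, hT, Nat.factorization_mul (pow_ne_zero _ hp.out.ne_zero) hm0.ne',
      hp.out.factorization_pow, Finsupp.add_apply, Finsupp.single_eq_same, Nat.factorization_eq_zero_of_not_dvd hm,
      add_zero]
  have h5 := (P : Subgroup AS).card_mul_index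
  have h6 : Nat.card (P : Subgroup AS) = p ^ n := h4
  rw [hT, h6] at h5
  have h7 := Nat.eq_of_mul_eq_mul_left (pow_pos hp.out.pos n) h5
  exact (Nat.le_of_dvd (by rw [h7]; exact hm0) P.card_dvd_index).trans h7.le

theorem ncard_nine : {X : Subgroup AS | Nat.card X = 9}.ncard ≤ 40 := by
  have : Fact (Nat.Prime 3) := ⟨by norm_num⟩
  exact (ncard_sylow_le (T := AS) (p := 3) (n := 2) (m := 40) card_AS (by norm_num)).trans
    (card_sylow_le (p := 3) (n := 2) card_AS (by norm_num) (by norm_num))

theorem ncard_eight : {X : Subgroup AS | Nat.card X = 8}.ncard ≤ 45 := by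
  have : Fact (Nat.Prime 2) := ⟨by norm_num⟩
  exact (ncard_sylow_le (T := AS) (p := 2) (n := 3) (m := 45) card_AS (by norm_num)).trans
    (card_sylow_le (p := 2) (n := 3) card_AS (by norm_num) (by norm_num))

theorem ncard_prime {p : ℕ} (hp : p.Prime) : {X : Subgroup AS | Nat.card X = p}.ncard ≤ {a : AS | orderOf a = p}.ncard := by
  have : Fact p.Prime := ⟨hp⟩
  have h1 : {X : Subgroup AS | Nat.card X = p} ⊆ Subgroup.zpowers '' {a : AS | orderOf a = p} := by
    intro X hX
    have hX' : Nat.card X = p := hX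
    obtain ⟨x, hx⟩ := exists_prime_orderOf_dvd_card' (G := X) p (by rw [hX'])
    refine ⟨x, by rw [← Subgroup.orderOf_coe] at hx; exact hx, ?_⟩
    apply Subgroup.eq_of_le_of_card_ge
    · rw [Subgroup.zpowers_le]; exact x.2
    · rw [Nat.card_zpowers, Subgroup.orderOf_coe, hx, hX']
  exact (Set.ncard_le_ncard h1 (Set.toFinite _)).trans (Set.ncard_image_le (Set.toFinite _))

theorem ncard_four : {X : Subgroup AS | Nat.card X = 4 ∧ ElAb 2 X}.ncard ≤ 30 := by
  classical
  have h1 := ncard_pair_le (T := AS) (S := {X : Subgroup AS | Nat.card X = 4 ∧ ElAb 2 X}) (P := CP) (m := 6) (by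
    rintro X ⟨hX, hE⟩
    have h2 : {a : AS | a ∈ X ∧ a ≠ 1}.ncard = 3 := by
      have h3 : {a : AS | a ∈ X ∧ a ≠ 1} = (X : Set AS) \ {1} := by
        ext a
        simp
      rw [h3, Set.ncard_sdiff_singleton_of_mem (by exact X.one_mem)]
      have : (X : Set AS).ncard = 4 := by
        rw [← hX]; rfl
      omega
    have hfin : {a : AS | a ∈ X ∧ a ≠ 1}.Finite := Set.toFinite _
    have h4 : hfin.toFinset.offDiag.card = 6 := by
      rw [Finset.offDiag_card, ← Set.ncard_eq_toFinset_card _ hfin, h2]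
    refine h4.symm.le.trans ?_
    rw [← Set.ncard_coe_finset]
    refine Set.ncard_le_ncard ?_ (Set.toFinite _)
    rintro ⟨a, b⟩ hab
    rw [Finset.mem_coe, Finset.mem_offDiag] at hab
    obtain ⟨ha, hb, hne⟩ := hab
    rw [Set.Finite.mem_toFinset] at ha hb
    have ha2 : orderOf a = 2 := (sq_iff a).2 ⟨by rw [← pow_two]; exact hE.exp a ha.1, ha.2⟩
    have hb2 : orderOf b = 2 := (sq_iff b).2 ⟨by rw [← pow_two]; exact hE.exp b hb.1, hb.2⟩
    refine ⟨⟨ha2, hb2, fun h => hne h.symm, hE.comm a ha.1 b hb.1⟩, ?_⟩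
    have hle : closure ({a, b} : Set AS) ≤ X := by
      rw [closure_le]
      rintro x (rfl | hx)
      · exact ha.1
      · rw [Set.mem_singleton_iff] at hx
        rw [hx]; exact hb.1
    apply Subgroup.eq_of_le_of_card_ge hle
    rw [hX]
    have h5 : zpowers a < closure ({a, b} : Set AS) := by
      refine lt_of_le_of_ne ?_ ?_
      · rw [zpowers_le]
        exact subset_closure (by simp)
      · intro h
        have hb' : b ∈ zpowers a := by
          rw [h]
          exact subset_closure (by simp)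
        have h6 : ∀ x ∈ zpowers a, x = 1 ∨ x = a := by
          rintro x ⟨n, rfl⟩
          have haa : a ^ (2 : ℤ) = 1 := by
            have := hE.exp a ha.1
            exact_mod_cast this
          rcases Int.even_or_odd' n with ⟨m, rfl | rfl⟩
          · left
            show a ^ (2 * m) = 1
            rw [zpow_mul, haa, one_zpow]
          · right
            show a ^ (2 * m + 1) = a
            rw [zpow_add, zpow_mul, haa, one_zpow, one_mul, zpow_one]
        rcases h6 b hb' with h7 | h7
        · exact hb.2 h7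
        · exact hne h7.symm
    have h7 := Subgroup.card_dvd_of_le h5.le
    rw [Nat.card_zpowers, ha2] at h7
    have h8 := Subgroup.card_dvd_of_le hle
    rw [hX] at h8
    have h9 : Nat.card (closure ({a, b} : Set AS)) ≠ 2 := fun h =>
      h5.ne (Subgroup.eq_of_le_of_card_ge h5.le (by rw [h, Nat.card_zpowers, ha2]))
    have h10 : Nat.card (closure ({a, b} : Set AS)) ≤ 4 := Nat.le_of_dvd (by norm_num) h8
    generalize Nat.card (closure ({a, b} : Set AS)) = c at h7 h8 h9 h10 ⊢
    interval_cases c <;> omega)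
  have h2 := CP_card
  omega


/-- the nonsolvable subgroups of order 60 -/
theorem ncard_sixty : {X : Subgroup AS | Nat.card X = 60 ∧ IsSimpleGroup X}.ncard ≤ 24 := by
  classical
  have h1 := ncard_pair_le (T := AS) (S := {X : Subgroup AS | Nat.card X = 60 ∧ IsSimpleGroup X})
    (P := {a : AS | orderOf a = 5} ×ˢ {b : AS | orderOf b = 3}) (m := 24 * 20) (by
    rintro X ⟨hX, hs⟩
    obtain ⟨i⟩ := Cfsg.Agent.S0494.result hX
    have h5 : {a : AS | a ∈ X ∧ orderOf a = 5}.ncard = 24 := by
      rw [← five_A5]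
      refine (Set.ncard_congr (fun a _ => ((i.symm a : X) : AS)) ?_ ?_ ?_).symm
      · intro a ha
        refine ⟨(i.symm a).2, ?_⟩
        rw [Subgroup.orderOf_coe, MulEquiv.orderOf_eq]
        exact ha
      · intro a b _ _ hab
        exact i.symm.injective (Subtype.ext hab)
      · rintro b ⟨hb, hb5⟩
        refine ⟨i ⟨b, hb⟩, ?_, by rw [i.symm_apply_apply]⟩
        show orderOf _ = 5
        rw [MulEquiv.orderOf_eq, Subgroup.orderOf_mk, hb5]
    have h3 : {a : AS | a ∈ X ∧ orderOf a = 3}.ncard = 20 := by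
      rw [← three_A5]
      refine (Set.ncard_congr (fun a _ => ((i.symm a : X) : AS)) ?_ ?_ ?_).symm
      · intro a ha
        refine ⟨(i.symm a).2, ?_⟩
        rw [Subgroup.orderOf_coe, MulEquiv.orderOf_eq]
        exact ha
      · intro a b _ _ hab
        exact i.symm.injective (Subtype.ext hab)
      · rintro b ⟨hb, hb5⟩
        refine ⟨i ⟨b, hb⟩, ?_, by rw [i.symm_apply_apply]⟩
        show orderOf _ = 3
        rw [MulEquiv.orderOf_eq, Subgroup.orderOf_mk, hb5]
    rw [← h5, ← h3, ← Set.ncard_prod]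
    refine Set.ncard_le_ncard ?_ (Set.toFinite _)
    rintro ⟨a, b⟩ ⟨⟨haX, ha⟩, ⟨hbX, hb⟩⟩
    refine ⟨⟨ha, hb⟩, ?_⟩
    have hle : closure ({a, b} : Set AS) ≤ X := by
      rw [closure_le]
      rintro x (rfl | hx)
      · exact haX
      · rw [Set.mem_singleton_iff] at hx
        rw [hx]; exact hbX
    have ha' : a ∈ closure ({a, b} : Set AS) := subset_closure (by simp)
    have hb' : b ∈ closure ({a, b} : Set AS) := subset_closure (by simp)
    set Y := closure ({a, b} : Set AS) with hY
    have hd5 : 5 ∣ Nat.card Y := by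
      rw [← show orderOf a = 5 from ha, ← Subgroup.orderOf_mk a ha']
      exact orderOf_dvd_natCard _
    have hd3 : 3 ∣ Nat.card Y := by
      rw [← show orderOf b = 3 from hb, ← Subgroup.orderOf_mk b hb']
      exact orderOf_dvd_natCard _
    by_contra hne
    have hZ : Y.subgroupOf X ≠ ⊤ := by
      intro h
      rw [Subgroup.subgroupOf_eq_top] at h
      exact hne (le_antisymm hle h)
    have h6 := card_dvd_factorial hZ
    have h7 := (Y.subgroupOf X).card_mul_index
    rw [Nat.card_congr (Subgroup.subgroupOfEquivOfLe hle).toEquiv, hX] at h7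
    rw [hX] at h6
    have h15 : 15 ∣ Nat.card Y := Nat.Coprime.mul_dvd_of_dvd_of_dvd (by norm_num : Nat.Coprime 5 3) hd5 hd3
    obtain ⟨c, hc⟩ := h15
    rw [hc] at h7
    have h8 : (Y.subgroupOf X).index ∣ 4 := ⟨c, by nlinarith [h7]⟩
    have h9 : (Y.subgroupOf X).index ≤ 4 := Nat.le_of_dvd (by norm_num) h8
    generalize (Y.subgroupOf X).index = n at h6 h9
    interval_cases n <;> revert h6 <;> decide)
  have h2 : ({a : AS | orderOf a = 5} ×ˢ {b : AS | orderOf b = 3}).ncard = 144 * 80 := by
    rw [Set.ncard_prod, five_AS, three_AS]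
  rw [h2] at h1
  omega

theorem ncard_locK_AS : (LocK AS \ {⊤}).ncard ≤ 300 := by
  classical
  have hsimp : IsSimpleGroup AS := alternatingGroup.isSimpleGroup (by simp)
  have hsub : LocK AS \ {⊤} ⊆
      (fun X : Subgroup AS => normalizer (X : Set AS)) ''
        ({X : Subgroup AS | Nat.card X = 5} ∪ ({X : Subgroup AS | Nat.card X = 9} ∪ ({X : Subgroup AS | Nat.card X = 8} ∪
          ({X : Subgroup AS | Nat.card X = 3} ∪ ({X : Subgroup AS | Nat.card X = 2} ∪
            {X : Subgroup AS | Nat.card X = 4 ∧ ElAb 2 X}))))) ∪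
      {X : Subgroup AS | Nat.card X = 60 ∧ IsSimpleGroup X} := by
    rintro K ⟨hK, hKt⟩
    have hKt' : K ≠ ⊤ := hKt
    have h1 := card_dvd_factorial hKt'
    have h2 := K.card_mul_index
    rw [card_AS] at h1 h2
    have h3 : 6 ≤ K.index := by
      by_contra hlt
      push Not at hlt
      generalize K.index = n at h1 hlt
      interval_cases n <;> revert h1 <;> decide
    have h4 : Nat.card K ≤ 60 := by
      by_contra hlt
      push Not at hlt
      nlinarith [Nat.mul_le_mul hlt h3]
    by_cases hs : Group.IsSolvable K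
    · left
      obtain ⟨X, hX1, hX2, hX3, s, hsp, hE⟩ := exists_elab hK hs
      refine ⟨X, ?_, hX1⟩
      obtain ⟨j, hj⟩ := card_elab hsp hE
      have hd : Nat.card X ∣ 360 := by rw [← card_AS]; exact X.card_subgroup_dvd_card
      have hj0 : j ≠ 0 := by
        rintro rfl
        rw [pow_zero] at hj
        exact hX3 (Subgroup.card_eq_one.1 hj)
      have hsd : s ∣ 360 := (dvd_pow_self s hj0).trans (hj ▸ hd)
      have hs' : s = 2 ∨ s = 3 ∨ s = 5 := by
        have h5 : s ∈ Nat.primeFactors 360 := Nat.mem_primeFactors.2 ⟨hsp, hsd, by norm_num⟩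
        have h6 : Nat.primeFactors 360 = {2, 3, 5} := by decide +kernel
        rw [h6] at h5
        simpa using h5
      rw [hj] at hd
      rcases hs' with rfl | rfl | rfl
      · have hj3 : j ≤ 3 := by
          by_contra hlt
          push Not at hlt
          have := (pow_dvd_pow 2 hlt).trans hd
          norm_num at this
        have hj' : j = 1 ∨ j = 2 ∨ j = 3 := by omega
        rcases hj' with rfl | rfl | rfl
        · exact Or.inr (Or.inr (Or.inr (Or.inr (Or.inl hj))))
        · exact Or.inr (Or.inr (Or.inr (Or.inr (Or.inr ⟨hj, hE⟩))))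
        · exact Or.inr (Or.inr (Or.inl hj))
      · have hj3 : j ≤ 2 := by
          by_contra hlt
          push Not at hlt
          have := (pow_dvd_pow 3 hlt).trans hd
          norm_num at this
        have hj' : j = 1 ∨ j = 2 := by omega
        rcases hj' with rfl | rfl
        · exact Or.inr (Or.inr (Or.inr (Or.inl hj)))
        · exact Or.inr (Or.inl hj)
      · have hj3 : j ≤ 1 := by
          by_contra hlt
          push Not at hlt
          have := (pow_dvd_pow 5 hlt).trans hd
          norm_num at this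
        have hj' : j = 1 := by omega
        subst hj'
        exact Or.inl hj
    · right
      have h5 : Nat.card K = 60 := by
        by_contra hne
        exact hs (Cfsg.Agent.BpAlt.solvable_of_lt _ K rfl (by omega))
      refine ⟨h5, ?_⟩
      have hnt : Nontrivial K := Finite.one_lt_card_iff_nontrivial.1 (by rw [h5]; norm_num)
      refine ⟨fun M hM => ?_⟩
      by_contra hcon
      push Not at hcon
      apply hs
      have h6 := M.card_mul_index
      rw [h5] at h6
      have h7 : Nat.card M ≠ 1 := fun h => hcon.1 (Subgroup.card_eq_one.1 h)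
      have h8 : M.index ≠ 1 := fun h => hcon.2 (Subgroup.index_eq_one.1 h)
      have h9 : 0 < Nat.card M := Nat.card_pos
      have h10 : 0 < M.index := Nat.pos_of_ne_zero (Subgroup.index_ne_zero_of_finite)
      have h9' : 2 ≤ Nat.card M := by omega
      have h10' : 2 ≤ M.index := by omega
      have h11 : Nat.card M < 60 := by
        have := Nat.mul_le_mul_left (Nat.card M) h10'
        omega
      have h12 : Nat.card (K ⧸ M) < 60 := by
        show M.index < 60
        have := Nat.mul_le_mul_right M.index h9'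
        omega
      have s1 : Group.IsSolvable M := Cfsg.Agent.BpAlt.solvable_of_lt _ M rfl h11
      have s2 : Group.IsSolvable (K ⧸ M) := Cfsg.Agent.BpAlt.solvable_of_lt _ _ rfl h12
      exact Group.isSolvable_of_ker_le_range M.subtype (QuotientGroup.mk' M) (by simp)
  refine (Set.ncard_le_ncard hsub (Set.toFinite _)).trans ((Set.ncard_union_le _ _).trans ?_)
  have a1 := ncard_five
  have a2 := ncard_nine
  have a3 := ncard_eight
  have a4 := (ncard_prime (p := 3) (by norm_num)).trans three_AS.le
  have a5 := (ncard_prime (p := 2) (by norm_num)).trans inv_AS.le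
  have a6 := ncard_four
  have a7 := ncard_sixty
  have b1 := Set.ncard_union_le {X : Subgroup AS | Nat.card X = 2} {X : Subgroup AS | Nat.card X = 4 ∧ ElAb 2 X}
  have b2 := Set.ncard_union_le {X : Subgroup AS | Nat.card X = 3}
    ({X : Subgroup AS | Nat.card X = 2} ∪ {X : Subgroup AS | Nat.card X = 4 ∧ ElAb 2 X})
  have b3 := Set.ncard_union_le {X : Subgroup AS | Nat.card X = 8} ({X : Subgroup AS | Nat.card X = 3} ∪
    ({X : Subgroup AS | Nat.card X = 2} ∪ {X : Subgroup AS | Nat.card X = 4 ∧ ElAb 2 X}))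
  have b4 := Set.ncard_union_le {X : Subgroup AS | Nat.card X = 9} ({X : Subgroup AS | Nat.card X = 8} ∪
    ({X : Subgroup AS | Nat.card X = 3} ∪
    ({X : Subgroup AS | Nat.card X = 2} ∪ {X : Subgroup AS | Nat.card X = 4 ∧ ElAb 2 X})))
  have b5 := Set.ncard_union_le {X : Subgroup AS | Nat.card X = 5} ({X : Subgroup AS | Nat.card X = 9} ∪
    ({X : Subgroup AS | Nat.card X = 8} ∪ ({X : Subgroup AS | Nat.card X = 3} ∪
    ({X : Subgroup AS | Nat.card X = 2} ∪ {X : Subgroup AS | Nat.card X = 4 ∧ ElAb 2 X}))))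
  have c1 := Set.ncard_image_le (f := fun X : Subgroup AS => normalizer (X : Set AS)) (Set.toFinite
    ({X : Subgroup AS | Nat.card X = 5} ∪ ({X : Subgroup AS | Nat.card X = 9} ∪ ({X : Subgroup AS | Nat.card X = 8} ∪
          ({X : Subgroup AS | Nat.card X = 3} ∪ ({X : Subgroup AS | Nat.card X = 2} ∪
            {X : Subgroup AS | Nat.card X = 4 ∧ ElAb 2 X}))))))
  omega

/-- `LocK` without the whole group is invariant under isomorphisms -/
theorem ncard_locK_congr {L L' : Type*} [Group L] [Group L'] [Finite L'] (e : L ≃* L') :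
    (LocK L \ {⊤}).ncard ≤ (LocK L' \ {⊤}).ncard := by
  have : Finite L := Finite.of_equiv _ e.symm.toEquiv
  refine Set.ncard_le_ncard_of_injOn (fun K => K.map e.toMonoidHom) ?_ ?_ (Set.toFinite _)
  · rintro K ⟨hK, hKt⟩
    refine ⟨map_mem_locK e hK, fun h => hKt ?_⟩
    have h1 : K.map e.toMonoidHom = ⊤ := h
    rw [Set.mem_singleton_iff, Subgroup.eq_top_iff']
    intro x
    have h2 : e x ∈ K.map e.toMonoidHom := by rw [h1]; exact mem_top _
    obtain ⟨y, hy, hxy⟩ := h2
    have : y = x := e.injective hxy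
    rwa [← this]
  · intro K _ K' _ h
    exact Subgroup.map_injective (f := e.toMonoidHom) e.injective h

/-- **`LocK A₆`** -/
theorem ncard_locK_a6 {T : Type*} [Group T] (e : T ≃* alternatingGroup (Fin 6)) : (LocK T \ {⊤}).ncard ≤ 300 :=
  (ncard_locK_congr e).trans ncard_locK_AS

end Cfsg.Agent.H751.EPX
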