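import Cfsg.Agent.H273.EPU.Count
import Cfsg.Agent.BpAlt.Row

/-!
# Counting members of `LocK T` (helper751)

* `ncard_sylow_le` : the subgroups of order `|T|_p`;
* `ncard_pair_le` : subgroups with many generating pairs in a given set;
* `exists_elab` : a solvable `K ∈ LocK T` is the normaliser of an elementary abelian subgroup `≠ 1`;
* `six_le_index`.
-/

set_option autoImplicit false

namespace Cfsg.Agent.H751.EPX.Loc

open Subgroup Cfsg Cfsg.Agent.H273.EPU Cfsg.Agent.H59.EP
open scoped commutatorElement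

variable {T : Type*} [Group T] [Finite T]

theorem ncard_sylow_le {p n m : ℕ} [hp : Fact p.Prime] (hT : Nat.card T = p ^ n * m) (hm : ¬ p ∣ m) :
    {X : Subgroup T | Nat.card X = p ^ n}.ncard ≤ Nat.card (Sylow p T) := by
  have hf : (Nat.card T).factorization p = n := by
    have hm0 : m ≠ 0 := by
      rintro rfl
      exact hm (dvd_zero p)
    rw [hT, Nat.factorization_mul (pow_ne_zero _ hp.out.ne_zero) hm0, hp.out.factorization_pow, Finsupp.add_apply,
      Finsupp.single_eq_same, Nat.factorization_eq_zero_of_not_dvd hm, add_zero]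
  rw [← Nat.card_coe_set_eq]
  refine Nat.card_le_card_of_injective (fun X : {X : Subgroup T | Nat.card X = p ^ n} =>
    Sylow.ofCard X.1 (by rw [hf]; exact X.2)) fun X Y h => ?_
  apply Subtype.ext
  have := congrArg (fun P : Sylow p T => (P : Subgroup T)) h
  exact this

theorem ncard_pair_le {S : Set (Subgroup T)} {P : Set (T × T)} {m : ℕ}
    (h : ∀ X ∈ S, m ≤ {p : T × T | p ∈ P ∧ closure ({p.1, p.2} : Set T) = X}.ncard) : m * S.ncard ≤ P.ncard := by
  classical
  have hfin : S.Finite := Set.toFinite _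
  let G : Subgroup T → Set (T × T) := fun X => {p | p ∈ P ∧ closure ({p.1, p.2} : Set T) = X}
  have hdis : (hfin.toFinset : Set (Subgroup T)).PairwiseDisjoint fun X => (Set.toFinite (G X)).toFinset := by
    intro X _ Y _ hne
    rw [Function.onFun, Finset.disjoint_left]
    intro p hp hq
    rw [Set.Finite.mem_toFinset] at hp hq
    exact hne (hp.2.symm.trans hq.2)
  have h1 : (hfin.toFinset.biUnion fun X => (Set.toFinite (G X)).toFinset).card ≤ P.ncard := by
    rw [Set.ncard_eq_toFinset_card P (Set.toFinite _)]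
    apply Finset.card_le_card
    intro p hp
    rw [Finset.mem_biUnion] at hp
    obtain ⟨X, _, hp⟩ := hp
    rw [Set.Finite.mem_toFinset] at hp ⊢
    exact hp.1
  rw [Finset.card_biUnion hdis] at h1
  refine le_trans ?_ h1
  rw [Set.ncard_eq_toFinset_card _ hfin, mul_comm, ← smul_eq_mul]
  apply Finset.card_nsmul_le_sum
  intro X hX
  rw [← Set.ncard_eq_toFinset_card _ (Set.toFinite _)]
  exact h X (hfin.mem_toFinset.1 hX)

/-- the index of a proper subgroup of a simple group -/
theorem card_dvd_factorial [IsSimpleGroup T] {K : Subgroup T} (hK : K ≠ ⊤) : Nat.card T ∣ K.index.factorial := by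
  have h1 : K.normalCore = ⊥ := by
    rcases (Subgroup.normalCore_normal K).eq_bot_or_eq_top with h | h
    · exact h
    · exact absurd (top_le_iff.1 (h ▸ K.normalCore_le)) hK
  have h2 : Function.Injective (MulAction.toPermHom T (T ⧸ K)) := by
    rw [← MonoidHom.ker_eq_bot_iff, ← Subgroup.normalCore_eq_ker, h1]
  have h3 := Subgroup.card_dvd_of_injective _ h2
  classical
  have : Fintype (T ⧸ K) := Fintype.ofFinite _
  rw [Nat.card_eq_fintype_card (α := Equiv.Perm (T ⧸ K)), Fintype.card_perm, ← Nat.card_eq_fintype_card] at h3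
  exact h3

/-- a solvable member of `LocK T` -/
theorem exists_elab {K : Subgroup T} (hK : K ∈ LocK T) (hs : Group.IsSolvable K) :
    ∃ X : Subgroup T, normalizer (X : Set T) = K ∧ X ≤ K ∧ X ≠ ⊥ ∧ ∃ s : ℕ, s.Prime ∧ ElAb s X := by
  obtain ⟨X, h1, h2, h3, h4⟩ := exists_key hK.1 (fun Y hY hY0 b hb => hK.2 Y hY hY0 (mem_normalizer_of hb))
  refine ⟨X, h1, h2, h3, ?_⟩
  have hXn : Nontrivial X := (Subgroup.nontrivial_iff_ne_bot X).2 h3
  have hXs : Group.IsSolvable X :=
    Group.isSolvable_of_isSolvable_injective (f := Subgroup.inclusion h2) (Subgroup.inclusion_injective h2)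
  have hcomm : ∀ a b : X, a * b = b * a := by
    have h5 : commutator X < ⊤ := Group.IsSolvable.commutator_lt_top_of_nontrivial X
    rcases h4 (commutator X) inferInstance with h6 | h6
    · intro a b
      have h7 : ⁅a, b⁆ ∈ commutator X := commutator_mem_commutator (mem_top _) (mem_top _)
      rw [h6, mem_bot, commutatorElement_eq_one_iff_mul_comm] at h7
      exact h7
    · exact absurd h6 h5.ne
  obtain ⟨s, hs, hsd, hel⟩ := elab_of_comm h4 hcomm
  refine ⟨s, hs, ?_, ?_⟩
  · intro a ha b hb
    exact Subtype.ext_iff.1 (hel.comm ⟨a, ha⟩ (mem_top _) ⟨b, hb⟩ (mem_top _))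
  · intro a ha
    exact Subtype.ext_iff.1 (hel.exp ⟨a, ha⟩ (mem_top _))

theorem card_elab {s : ℕ} (hs : s.Prime) {X : Subgroup T} (hX : ElAb s X) : ∃ j, Nat.card X = s ^ j := by
  have : Fact s.Prime := ⟨hs⟩
  have hps : IsPGroup s X := by
    rintro ⟨y, hy⟩
    refine ⟨1, Subtype.ext ?_⟩
    rw [pow_one]
    exact hX.exp y hy
  exact IsPGroup.iff_card.1 hps

end Cfsg.Agent.H751.EPX.Loc
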